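import Cfsg.Agent.H2.Root.SpTransvRoot
import Cfsg.Agent.H2.Center
import Cfsg.Agent.H2.Perfect

/-!
Elements of the symplectic group used for the minimal index: the radical of the stabiliser of a point,
the embedding of `Sp_{2n}` into `Sp_{2n+2}` and the hyperbolic plane `SL₂`.
-/

set_option autoImplicit false

namespace Cfsg.Agent.H2.MinIdx

open Matrix
open scoped MatrixGroups

variable {m n : ℕ} {F : Type*} [Field F]

local notation "⟪" u ", " v "⟫" => Cfsg.sympForm _ F u v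

/-- The action on vectors. -/
abbrev act (g : Matrix.symplecticGroup (Fin m) F) (x : Fin m ⊕ Fin m → F) : Fin m ⊕ Fin m → F :=
  (g : Matrix (Fin m ⊕ Fin m) (Fin m ⊕ Fin m) F) *ᵥ x

lemma act_mul (g h : Matrix.symplecticGroup (Fin m) F) (x : Fin m ⊕ Fin m → F) :
    act (g * h) x = act g (act h x) := by
  simp [act, Matrix.mulVec_mulVec]

lemma act_one (x : Fin m ⊕ Fin m → F) : act 1 x = x := by simp [act]

lemma act_inv_act (g : Matrix.symplecticGroup (Fin m) F) (x : Fin m ⊕ Fin m → F) :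
    act g⁻¹ (act g x) = x := by rw [← act_mul, inv_mul_cancel, act_one]

lemma act_act_inv (g : Matrix.symplecticGroup (Fin m) F) (x : Fin m ⊕ Fin m → F) :
    act g (act g⁻¹ x) = x := by rw [← act_mul, mul_inv_cancel, act_one]

lemma act_injective (g : Matrix.symplecticGroup (Fin m) F) : Function.Injective (act g) :=
  fun x y h => by rw [← act_inv_act g x, h, act_inv_act]

lemma act_add (g : Matrix.symplecticGroup (Fin m) F) (x y : Fin m ⊕ Fin m → F) :
    act g (x + y) = act g x + act g y := Matrix.mulVec_add _ _ _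

lemma act_smul (g : Matrix.symplecticGroup (Fin m) F) (c : F) (x : Fin m ⊕ Fin m → F) :
    act g (c • x) = c • act g x := Matrix.mulVec_smul _ _ _

lemma act_zero (g : Matrix.symplecticGroup (Fin m) F) : act g 0 = 0 := Matrix.mulVec_zero _

lemma act_ne_zero (g : Matrix.symplecticGroup (Fin m) F) {x : Fin m ⊕ Fin m → F} (hx : x ≠ 0) :
    act g x ≠ 0 := fun h => hx (act_injective g (h.trans (act_zero g).symm))

lemma form_act (g : Matrix.symplecticGroup (Fin m) F) (x y : Fin m ⊕ Fin m → F) :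
    ⟪act g x, act g y⟫ = ⟪x, y⟫ := sympForm_mulVec g x y

lemma act_transv (p x : Fin m ⊕ Fin m → F) (c : F) :
    act (transv p c) x = x + (c * ⟪x, p⟫) • p := transv_apply p x c

lemma fadd_l (u v w : Fin m ⊕ Fin m → F) : ⟪u + v, w⟫ = ⟪u, w⟫ + ⟪v, w⟫ := root_sympForm_add_left u v w

lemma fadd_r (u v w : Fin m ⊕ Fin m → F) : ⟪u, v + w⟫ = ⟪u, v⟫ + ⟪u, w⟫ := root_sympForm_add_right u v w

lemma fsmul_l (a : F) (u w : Fin m ⊕ Fin m → F) : ⟪a • u, w⟫ = a * ⟪u, w⟫ := root_sympForm_smul_left a u w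

lemma fsmul_r (a : F) (u w : Fin m ⊕ Fin m → F) : ⟪u, a • w⟫ = a * ⟪u, w⟫ := root_sympForm_smul_right a u w

lemma fzero_l (w : Fin m ⊕ Fin m → F) : ⟪(0 : Fin m ⊕ Fin m → F), w⟫ = 0 := by
  simpa using fsmul_l (0 : F) 0 w

lemma fzero_r (w : Fin m ⊕ Fin m → F) : ⟪w, (0 : Fin m ⊕ Fin m → F)⟫ = 0 := by
  simpa using fsmul_r (0 : F) w 0

lemma fneg_l (u w : Fin m ⊕ Fin m → F) : ⟪-u, w⟫ = -⟪u, w⟫ := by
  simpa using fsmul_l (-1 : F) u w

lemma fneg_r (u w : Fin m ⊕ Fin m → F) : ⟪u, -w⟫ = -⟪u, w⟫ := by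
  simpa using fsmul_r (-1 : F) u w

lemma fsub_l (u v w : Fin m ⊕ Fin m → F) : ⟪u - v, w⟫ = ⟪u, w⟫ - ⟪v, w⟫ := by
  rw [sub_eq_add_neg, fadd_l, fneg_l, sub_eq_add_neg]

lemma fsub_r (u v w : Fin m ⊕ Fin m → F) : ⟪u, v - w⟫ = ⟪u, v⟫ - ⟪u, w⟫ := by
  rw [sub_eq_add_neg, fadd_r, fneg_r, sub_eq_add_neg]

lemma fswap_zero {u v : Fin m ⊕ Fin m → F} (h : ⟪u, v⟫ = 0) : ⟪v, u⟫ = 0 := by
  rw [sympForm_swap, h, neg_zero]

/-- An element of the radical of the stabiliser of `⟨v⟩`, for `⟪a, v⟫ = 0`. -/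
def qel (v a : Fin m ⊕ Fin m → F) (t : F) : Matrix.symplecticGroup (Fin m) F :=
  transv (a + v) 1 * transv a (-1) * transv v (t - 1)

lemma act_qel {v a : Fin m ⊕ Fin m → F} (h : ⟪a, v⟫ = 0) (t : F) (x : Fin m ⊕ Fin m → F) :
    act (qel v a t) x = x + ⟪x, v⟫ • a + ⟪x, a⟫ • v + (t * ⟪x, v⟫) • v := by
  have h' : ⟪v, a⟫ = 0 := fswap_zero h
  simp only [qel, act_mul, act_transv, fadd_l, fadd_r, fsmul_l, sympForm_self, h, h']
  module

lemma qel_mul {v a b : Fin m ⊕ Fin m → F} (ha : ⟪a, v⟫ = 0) (hb : ⟪b, v⟫ = 0) (t s : F) :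
    qel v a t * qel v b s = qel v (a + b) (t + s + ⟪b, a⟫) := by
  have hab : ⟪a + b, v⟫ = 0 := by rw [fadd_l, ha, hb, add_zero]
  have ha' : ⟪v, a⟫ = 0 := fswap_zero ha
  apply ext_of_mulVec
  intro x
  show act _ x = act _ x
  simp only [act_mul, act_qel ha, act_qel hb, act_qel hab, fadd_l, fadd_r, fsmul_l,
    sympForm_self, hb, ha']
  module

lemma qel_zero_vec (v : Fin m ⊕ Fin m → F) (t : F) : qel v 0 t = transv v t := by
  apply ext_of_mulVec
  intro x
  show act _ x = act _ x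
  rw [act_qel (fzero_l v), act_transv, fzero_r]
  simp

lemma qel_zero_zero (v : Fin m ⊕ Fin m → F) : qel v 0 (0 : F) = 1 := by
  rw [qel_zero_vec, transv_zero]

lemma qel_inv {v a : Fin m ⊕ Fin m → F} (ha : ⟪a, v⟫ = 0) (t : F) :
    (qel v a t)⁻¹ = qel v (-a) (-t) := by
  refine inv_eq_of_mul_eq_one_right ?_
  rw [qel_mul ha (by rw [fneg_l, ha, neg_zero])]
  simp [fneg_l, qel_zero_zero]

lemma qel_conj (g : Matrix.symplecticGroup (Fin m) F) (v a : Fin m ⊕ Fin m → F) (t : F) :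
    g * qel v a t * g⁻¹ = qel (act g v) (act g a) t := by
  have h : g * qel v a t * g⁻¹ = (g * transv (a + v) 1 * g⁻¹) * (g * transv a (-1) * g⁻¹) *
      (g * transv v (t - 1) * g⁻¹) := by rw [qel]; group
  rw [h, conj_transv, conj_transv, conj_transv, qel, Matrix.mulVec_add]

lemma qel_smul {v a : Fin m ⊕ Fin m → F} (h : ⟪a, v⟫ = 0) (c t : F) :
    qel (c • v) a t = qel v (c • a) (c * c * t) := by
  apply ext_of_mulVec
  intro x
  show act _ x = act _ x
  rw [act_qel (by rw [fsmul_r, h, mul_zero]), act_qel (by rw [fsmul_l, h, mul_zero])]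
  simp only [fsmul_r]
  module

lemma qel_shift {v a : Fin m ⊕ Fin m → F} (h : ⟪a, v⟫ = 0) (s t : F) :
    qel v (a + s • v) t = qel v a (t + 2 * s) := by
  apply ext_of_mulVec
  intro x
  show act _ x = act _ x
  rw [act_qel (by rw [fadd_l, fsmul_l, h, sympForm_self]; ring), act_qel h]
  simp only [fadd_r, fsmul_r]
  module

/-- The first basis vector. -/
def e0 : Fin (n + 1) ⊕ Fin (n + 1) → F := Pi.single (.inl 0) 1

/-- The partner of `e0`. -/
def f0 : Fin (n + 1) ⊕ Fin (n + 1) → F := Pi.single (.inr 0) (-1)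

lemma e0_ne_zero : (e0 : Fin (n + 1) ⊕ Fin (n + 1) → F) ≠ 0 := by simp [e0]

lemma form_e0 (x : Fin (n + 1) ⊕ Fin (n + 1) → F) : ⟪e0, x⟫ = -x (.inr 0) := sympForm_single_inl 0 x

lemma form_f0 (x : Fin (n + 1) ⊕ Fin (n + 1) → F) : ⟪f0, x⟫ = -x (.inl 0) := by
  rw [f0, Pi.single_neg, fneg_l, sympForm_single_inr]

lemma form_e0_f0 : ⟪(e0 : Fin (n + 1) ⊕ Fin (n + 1) → F), f0⟫ = 1 := by
  rw [form_e0]; simp [f0]

/-- Embedding of the vectors orthogonal to the first plane. -/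
def up : (Fin n ⊕ Fin n → F) →ₗ[F] (Fin (n + 1) ⊕ Fin (n + 1) → F) where
  toFun a := Sum.elim (Fin.cons 0 (a ∘ .inl)) (Fin.cons 0 (a ∘ .inr))
  map_add' a b := by funext i; rcases i with i | i <;> refine Fin.cases ?_ ?_ i <;> simp
  map_smul' c a := by funext i; rcases i with i | i <;> refine Fin.cases ?_ ?_ i <;> simp

/-- Projection onto the orthogonal of the first plane. -/
def down : (Fin (n + 1) ⊕ Fin (n + 1) → F) →ₗ[F] (Fin n ⊕ Fin n → F) :=
  LinearMap.funLeft F F (Sum.map Fin.succ Fin.succ)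

@[simp] lemma down_up (a : Fin n ⊕ Fin n → F) : down (up a) = a := by
  funext i; rcases i with i | i <;> simp [down, up]

lemma up_injective : Function.Injective (up : (Fin n ⊕ Fin n → F) → _) :=
  fun a b h => by rw [← down_up a, ← down_up b, h]

@[simp] lemma down_e0 : down (e0 : Fin (n + 1) ⊕ Fin (n + 1) → F) = 0 := by
  funext i; rcases i with i | i <;> simp [down, e0, Fin.succ_ne_zero]

@[simp] lemma down_f0 : down (f0 : Fin (n + 1) ⊕ Fin (n + 1) → F) = 0 := by
  funext i; rcases i with i | i <;> simp [down, f0, Fin.succ_ne_zero]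

@[simp] lemma form_e0_up (a : Fin n ⊕ Fin n → F) : ⟪e0, up a⟫ = 0 := by
  rw [form_e0]; simp [up]

@[simp] lemma form_f0_up (a : Fin n ⊕ Fin n → F) : ⟪f0, up a⟫ = 0 := by
  rw [form_f0]; simp [up]

@[simp] lemma form_up_e0 (a : Fin n ⊕ Fin n → F) : ⟪up a, e0⟫ = 0 := fswap_zero (form_e0_up a)

@[simp] lemma form_up_f0 (a : Fin n ⊕ Fin n → F) : ⟪up a, f0⟫ = 0 := fswap_zero (form_f0_up a)

lemma decomp (x : Fin (n + 1) ⊕ Fin (n + 1) → F) :
    x = ⟪x, f0⟫ • e0 + ⟪e0, x⟫ • f0 + up (down x) := by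
  rw [sympForm_swap f0 x, form_f0, form_e0]
  funext i
  rcases i with i | i <;> refine Fin.cases ?_ ?_ i <;>
    simp [e0, f0, up, down, Fin.succ_ne_zero]

lemma form_up (a b : Fin n ⊕ Fin n → F) : ⟪up a, up b⟫ = ⟪a, b⟫ := by
  rw [sympForm_apply, sympForm_apply, Fin.sum_univ_succ]
  simp [up]

/-- The linear map of an element of the complement. -/
def inclLin (g : Matrix.symplecticGroup (Fin n) F) :
    (Fin (n + 1) ⊕ Fin (n + 1) → F) →ₗ[F] (Fin (n + 1) ⊕ Fin (n + 1) → F) :=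
  LinearMap.id + up.comp ((Matrix.toLin' (g : Matrix _ _ F) - LinearMap.id).comp down)

lemma inclLin_apply (g : Matrix.symplecticGroup (Fin n) F) (x : Fin (n + 1) ⊕ Fin (n + 1) → F) :
    inclLin g x = x + up (act g (down x) - down x) := by
  simp [inclLin, act]

lemma form_decomp (x y : Fin (n + 1) ⊕ Fin (n + 1) → F) :
    ⟪x, y⟫ = ⟪x, f0⟫ * ⟪e0, y⟫ - ⟪e0, x⟫ * ⟪y, f0⟫ + ⟪down x, down y⟫ := by
  conv_lhs => rw [decomp x, decomp y]
  simp only [fadd_l, fadd_r, fsmul_l, fsmul_r, sympForm_self, form_e0_f0, form_e0_up, form_f0_up,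
    form_up_e0, form_up_f0, form_up, sympForm_swap (e0 : Fin (n + 1) ⊕ Fin (n + 1) → F) f0]
  ring

/-- `Sp_{2n}` on the orthogonal of the first plane. -/
noncomputable def incl :
    Matrix.symplecticGroup (Fin n) F →* Matrix.symplecticGroup (Fin (n + 1)) F :=
  MonoidHom.mk' (fun g => ⟨LinearMap.toMatrix' (inclLin g), by
    rw [mem_symplecticGroup_iff]
    intro x y
    rw [← Matrix.toLin'_apply, ← Matrix.toLin'_apply, Matrix.toLin'_toMatrix', inclLin_apply,
      inclLin_apply, form_decomp (x + _), form_decomp x]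
    simp only [map_add, down_up, add_sub_cancel, fadd_l, fadd_r, form_e0_up, form_up_f0, add_zero,
      form_act]⟩) fun g h => by
    apply ext_of_mulVec
    intro x
    simp only [Submonoid.coe_mul, ← Matrix.mulVec_mulVec]
    rw [← Matrix.toLin'_apply, ← Matrix.toLin'_apply, ← Matrix.toLin'_apply,
      Matrix.toLin'_toMatrix', Matrix.toLin'_toMatrix', Matrix.toLin'_toMatrix', inclLin_apply,
      inclLin_apply, inclLin_apply, map_add, down_up, add_sub_cancel, act_mul]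
    simp only [map_sub]
    abel

lemma act_incl (g : Matrix.symplecticGroup (Fin n) F) (x : Fin (n + 1) ⊕ Fin (n + 1) → F) :
    act (incl g) x = x + up (act g (down x) - down x) := by
  show LinearMap.toMatrix' (inclLin g) *ᵥ x = _
  rw [← Matrix.toLin'_apply, Matrix.toLin'_toMatrix', inclLin_apply]

@[simp] lemma act_incl_e0 (g : Matrix.symplecticGroup (Fin n) F) : act (incl g) e0 = e0 := by
  simp [act_incl]

@[simp] lemma act_incl_f0 (g : Matrix.symplecticGroup (Fin n) F) : act (incl g) f0 = f0 := by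
  simp [act_incl]

lemma act_incl_up (g : Matrix.symplecticGroup (Fin n) F) (a : Fin n ⊕ Fin n → F) :
    act (incl g) (up a) = up (act g a) := by
  simp [act_incl]

lemma incl_injective : Function.Injective (incl : Matrix.symplecticGroup (Fin n) F → _) := by
  intro g h e
  apply ext_of_mulVec
  intro a
  apply up_injective
  rw [← act_incl_up, ← act_incl_up, e]

lemma incl_transv (a : Fin n ⊕ Fin n → F) (t : F) : incl (transv a t) = transv (up a) t := by
  apply ext_of_mulVec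
  intro x
  show act _ x = act _ x
  rw [act_incl, act_transv, act_transv, add_sub_cancel_left, map_smul, form_decomp x (up a)]
  simp

/-- `SL₂` on the first hyperbolic plane. -/
noncomputable def sl : SL(2, F) →* Matrix.symplecticGroup (Fin (n + 1)) F := planeHom form_e0_f0

lemma sl_injective : Function.Injective (sl : SL(2, F) → Matrix.symplecticGroup (Fin (n + 1)) F) :=
  planeHom_injective _

lemma act_sl_up (M : SL(2, F)) (a : Fin n ⊕ Fin n → F) :
    act (sl M : Matrix.symplecticGroup (Fin (n + 1)) F) (up a) = up a := by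
  show _ *ᵥ _ = _
  rw [sl, planeHom_apply, planeLin_apply]
  simp

lemma sl_incl_commute (M : SL(2, F)) (g : Matrix.symplecticGroup (Fin n) F) :
    (sl M : Matrix.symplecticGroup (Fin (n + 1)) F) * incl g = incl g * sl M := by
  apply ext_of_mulVec
  intro x
  show act _ x = act _ x
  rw [decomp x]
  simp only [act_mul, act_add, act_smul, act_incl_e0, act_incl_f0, act_incl_up, act_sl_up]
  have h : ∀ p : Fin (n + 1) ⊕ Fin (n + 1) → F, down p = 0 → act (incl g) p = p := fun p hp => by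
    simp [act_incl, hp]
  rw [h, h] <;>
  · show down (_ *ᵥ _) = 0
    rw [sl, planeHom_apply, planeLin_apply]
    simp

/-- Diagonal element of `SL₂`. -/
def sdiag (c : Fˣ) : SL(2, F) := ⟨!![(c : F), 0; 0, (c⁻¹ : Fˣ)], by simp [Matrix.det_fin_two_of]⟩

/-- The torus element scaling `e0` by `c`. -/
noncomputable def tor (c : Fˣ) : Matrix.symplecticGroup (Fin (n + 1)) F := sl (sdiag c)

lemma act_tor_e0 (c : Fˣ) :
    act (tor c : Matrix.symplecticGroup (Fin (n + 1)) F) e0 = (c : F) • e0 := by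
  show _ *ᵥ _ = _
  rw [tor, sl, planeHom_apply, planeLin_apply]
  simp [sdiag, form_e0_f0, sub_smul]

lemma act_tor_up (c : Fˣ) (a : Fin n ⊕ Fin n → F) :
    act (tor c : Matrix.symplecticGroup (Fin (n + 1)) F) (up a) = up a := act_sl_up _ a

lemma tor_qel (c : Fˣ) (a : Fin n ⊕ Fin n → F) (t : F) :
    tor c * qel e0 (up a) t * (tor c)⁻¹ = qel e0 (up ((c : F) • a)) ((c : F) * c * t) := by
  rw [qel_conj, act_tor_e0, act_tor_up, qel_smul (form_up_e0 a), map_smul]

lemma incl_qel (g : Matrix.symplecticGroup (Fin n) F) (a : Fin n ⊕ Fin n → F) (t : F) :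
    incl g * qel e0 (up a) t * (incl g)⁻¹ = qel e0 (up (act g a)) t := by
  rw [qel_conj, act_incl_e0, act_incl_up]

lemma qel_up_mul (a b : Fin n ⊕ Fin n → F) (t s : F) :
    qel e0 (up a) t * qel e0 (up b) s = qel e0 (up (a + b)) (t + s + ⟪b, a⟫) := by
  rw [qel_mul (form_up_e0 a) (form_up_e0 b), map_add, form_up]

lemma qel_up_inv (a : Fin n ⊕ Fin n → F) (t : F) :
    (qel e0 (up a) t)⁻¹ = qel e0 (up (-a)) (-t) := by
  rw [qel_inv (form_up_e0 a), map_neg]

lemma qel_up_inj {a b : Fin n ⊕ Fin n → F} {t s : F}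
    (h : qel e0 (up a) t = qel e0 (up b) s) : a = b ∧ t = s := by
  have key : act (qel e0 (up a) t) f0 = act (qel e0 (up b) s) f0 := by rw [h]
  have h1 : ⟪(f0 : Fin (n + 1) ⊕ Fin (n + 1) → F), e0⟫ = -1 := by
    rw [sympForm_swap, form_e0_f0]
  rw [act_qel (form_up_e0 a), act_qel (form_up_e0 b)] at key
  simp only [h1, form_f0_up, zero_smul, add_zero] at key
  have e1 := congrArg down key
  simp only [map_add, map_smul, down_up, down_f0, down_e0, smul_zero, add_zero, zero_add] at e1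
  have hab : a = b := by simpa using e1
  subst hab
  refine ⟨rfl, ?_⟩
  have e2 := congrArg (fun x => ⟪x, f0⟫) key
  simpa [fadd_l, fsmul_l, fneg_l, form_up_f0, form_e0_f0] using e2

end Cfsg.Agent.H2.MinIdx
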